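import Cfsg.Agent.Lib.Tits.Over
import Cfsg.Agent.Lib.Perm.Witt

/-!
The Tits group has no doubly transitive action.
-/

namespace Cfsg.Lib.Tits
open Cfsg.Lie Cfsg.Lib.St Cfsg.Lib.Calc Cfsg.Lib.F2 Subgroup MulAction
open scoped Pointwise

section Gen
variable {G Ω : Type*} [Group G] [Finite G] [MulAction G Ω] [Finite Ω]

theorem card_dvd_sum_fix (K : Subgroup G) [Fintype K] :
    Nat.card K ∣ ∑ g : K, Nat.card (fixedBy Ω (g : G)) := by
  classical
  have := Fintype.ofFinite Ω
  have := sum_card_fixedBy_eq_card_orbits_mul_card_group K Ω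
  simp only [Fintype.card_eq_nat_card] at this
  exact Dvd.intro_left _ this.symm

theorem dvd_sub_fix {H A : Subgroup G} {z : G} (hH : H ≤ A) (hz : z ∈ A) (hz' : z ∉ H)
    (h : ∀ a ∈ A, a ∈ H ∨ z⁻¹ * a ∈ H) (hc : ∀ h ∈ H, h ≠ 1 → IsConj h (z * h)) :
    (Nat.card A : ℤ) ∣ Nat.card Ω - Nat.card (fixedBy Ω z) := by
  classical
  have := Fintype.ofFinite G
  have key : ∀ φ : G → ℕ, ∑ a : A, φ a = ∑ h : H, φ h + ∑ h : H, φ (z * h) := fun φ => by
    refine .trans ?_ (Fintype.sum_sum_type (Sum.elim (fun h : H => φ h) fun h : H => φ (z * h)))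
    refine (Fintype.sum_bijective (Sum.elim (fun h => ⟨h, hH h.2⟩)
      fun h => ⟨z * h, mul_mem hz (hH h.2)⟩) ⟨?_, fun a => ?_⟩ _ _ (by simp)).symm
    · rintro (x | x) (y | y) e <;> simp only [Sum.elim_inl, Sum.elim_inr, Subtype.mk.injEq] at e
      · simpa using e
      · exact absurd (by simpa [e] using mul_mem x.2 (inv_mem y.2)) hz'
      · exact absurd (by simpa [← e] using mul_mem y.2 (inv_mem x.2)) hz'
      · simpa using e
    · rcases h a a.2 with h | h
      exacts [⟨.inl ⟨_, h⟩, rfl⟩, ⟨.inr ⟨_, h⟩, by simp⟩]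
  have h1 : Nat.card A = 2 * Nat.card H := by simpa [two_mul] using key 1
  have h2 : ∑ h : H, Nat.card (fixedBy Ω (z * h)) + Nat.card Ω =
      ∑ h : H, Nat.card (fixedBy Ω (h : G)) + Nat.card (fixedBy Ω z) := by
    rw [← Finset.add_sum_erase _ _ (Finset.mem_univ 1), ← Finset.add_sum_erase _ _ (Finset.mem_univ 1),
      Finset.sum_congr rfl (g := fun h : H => Nat.card (fixedBy Ω (h : G))) fun x hx => ?_]
    · simp; omega
    obtain ⟨c, hc⟩ := isConj_iff.1 (hc x x.2 (by simpa using hx))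
    rw [← hc, ← smul_fixedBy, Nat.card_coe_set_eq, Set.ncard_smul_set, Nat.card_coe_set_eq]
  obtain ⟨a, ha⟩ := card_dvd_sum_fix (Ω := Ω) A
  obtain ⟨b, hb⟩ := card_dvd_sum_fix (Ω := Ω) H
  rw [key fun g => Nat.card (fixedBy Ω g)] at ha
  refine ⟨b - a, ?_⟩
  zify at ha hb h1 h2
  linear_combination 2 * hb - ha + h2 - b * h1

theorem fix_of_small {A : Subgroup G} {z f : G} (hA : IsPGroup 2 A) (hf : f ^ 5 = 1) (hz : z ∈ A)
    (h1 : A ≤ centralizer {z}) (h2 : f ∈ centralizer {z}) (h3 : f ∈ normalizer (A : Set G))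
    (hc : Nat.card A = 32)
    (h4 : ∀ K : Subgroup G, z ∈ K → f ∈ K → ∀ y ∈ A, y ∈ K → y ≠ 1 → y ≠ z → A ≤ K)
    (h5 : (fixedBy Ω z).ncard = 8) {a : G} (ha : a ∈ A) : fixedBy Ω z ⊆ fixedBy Ω a := by
  have : Fact (Nat.Prime 5) := ⟨by norm_num⟩
  have k : ∀ g ∈ centralizer {z}, ∀ x ∈ fixedBy Ω z, g • x ∈ fixedBy Ω z := fun g h x hx => by
    rw [mem_fixedBy, ← mul_smul, h z rfl, mul_smul, hx]
  let s := {x ∈ fixedBy Ω z | ¬ A ≤ stabilizer G x}
  have k0 : ∀ u ∈ centralizer {z} ⊓ normalizer (A : Set G), ∀ x ∈ s, u • x ∈ s := fun u hu x hx =>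
    ⟨k u hu.1 x hx.1, fun h => hx.2 fun a ha => by
      simpa [mul_smul] using h ((mem_normalizer_iff.1 hu.2 a).1 ha)⟩
  have k1 : 2 ∣ s.ncard := by
    by_contra h
    obtain ⟨x, hx, h⟩ := Perm.exists_fixed_of_not_dvd hA (s := s)
      (fun u hu => k0 u ⟨h1 hu, le_normalizer hu⟩) h
    exact hx.2 h
  have k2 : 5 ∣ s.ncard := by
    by_contra h
    obtain ⟨x, hx, h⟩ := Perm.exists_fixed_of_not_dvd (P := zpowers f) (IsPGroup.of_card_dvd_pow
      (n := 1) (by rw [Nat.card_zpowers]; exact orderOf_dvd_of_pow_eq_one hf)) (s := s)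
      (fun u hu => k0 u (zpowers_le.2 (mem_inf.2 ⟨h2, h3⟩) hu)) h
    have h6 := Perm.card_eq_card_orbit_mul (G := A) x
    have h7 : Nat.card (orbit A x) ≤ 8 := h5 ▸ Set.ncard_le_ncard (by
      rintro _ ⟨u, rfl⟩; exact k u (h1 u.2) x hx.1)
    obtain ⟨y, h8, h9⟩ := Perm.exists_ne_ne (α := stabilizer A x) (by nlinarith) 1 ⟨⟨z, hz⟩, hx.1⟩
    exact hx.2 (h4 _ hx.1 (h f (mem_zpowers f)) y.1 y.1.2 y.2 (by simpa using h8)
      fun e => h9 (Subtype.ext (Subtype.ext e)))
  have k3 : s.ncard ≤ 8 := h5 ▸ Set.ncard_le_ncard fun _ h => h.1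
  have k4 : s = ∅ := (Set.ncard_eq_zero (Set.toFinite _)).1 (by omega)
  exact fun x hx => by_contra fun h => (k4 ▸ (⟨hx, fun h' => h (h' ha)⟩ : x ∈ s) : x ∈ (∅ : Set Ω))

end Gen

/-- the coding of the elements of the Tits group -/
def RT (g : TT) (C : ℕ) : Prop := R g C

theorem ET : Cg RT m52 o52 := E.comap TT.subtype (subtype_injective _)

theorem tl_mem : ∀ g ∈ U0w.map W ++ [n0, n1], g ∈ TT := fun g hg =>
  (List.mem_append.1 hg).elim (fun h => U0_le_TT (mem_cl h)) fun h => by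
    rcases List.mem_pair.1 h with rfl | rfl
    exacts [n0_mem, n1_mem]

/-- generators of the Tits group -/
noncomputable def tl : List TT := (U0w.map W ++ [n0, n1]).attachWith _ tl_mem

/-- codes of the generators -/
noncomputable def TL : List ℕ := U0w.map cW ++ [cG [2], cG [3]]

theorem rl_tl : RL RT tl TL := by
  have h : RL R (tl.map TT.subtype) TL := by
    rw [show tl.map TT.subtype = _ from List.attachWith_map_subtype_val _]
    exact List.rel_append (RWs _) (.cons Rn0 (.cons Rn1 .nil))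
  exact (List.forall₂_map_left_iff (f := TT.subtype)).1 h

theorem cl_tl : cl tl = ⊤ := by
  have h : ∀ g ∈ U0w.map W ++ [n0, n1], g ∈ (cl tl).map TT.subtype := fun g hg =>
    ⟨⟨g, tl_mem g hg⟩, mem_cl (by simpa [tl] using hg), rfl⟩
  refine map_injective (subtype_injective TT) ?_
  rw [← MonoidHom.range_eq_map, range_subtype]
  exact eq_TT (cl_le.2 fun g hg => h g (List.mem_append_left _ hg)) (map_subtype_le _)
    (h _ (by simp)) (h _ (by simp))

/-- words in the generators -/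
noncomputable abbrev WT : List ℕ → TT := ev tl
/-- codes of words in the generators -/
noncomputable abbrev cT : List ℕ → ℕ := wrd m52 o52 TL

theorem RWT (w : List ℕ) : RT (WT w) (cT w) := ET.wrd rl_tl w

/-- an elementary abelian subgroup -/
noncomputable def HT : Subgroup TT := cl ([[6], [7], [8], [9]].map WT)
/-- an elementary abelian subgroup -/
noncomputable def AT : Subgroup TT := cl ([[10], [6], [7], [8], [9]].map WT)

theorem pcA : PC ([[10], [6], [7], [8], [9]].map WT) := ET.pcOK (ET.wrds rl_tl _)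
  (e := 0x10000000000000000000000000000000000000000000000000000000000020001000000000000000000000000000000000000000000000000000000040002000100000000000000000000000000000000000000000000000000080004000200010000)
  (by decide +kernel)

theorem indA : Ind ([[10], [6], [7], [8], [9]].map WT) :=
  ET.indOK (ET.wrds rl_tl _) pcA (by decide +kernel)

theorem card_AT : Nat.card AT = 32 := pcA.card_eq indA

theorem conj_HT {h : TT} (hh : h ∈ HT) (h1 : h ≠ 1) : IsConj h (WT [10] * h) := by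
  obtain ⟨C, h2, h3⟩ := ET.allSp' (ET.wrds rl_tl [[6], [7], [8], [9]]) pcA.1
    (p := fun C => bor (Nat.beq C o52) (anyLt 5 fun i =>
      Nat.beq (mf m52 (cT [i]) C) (mf m52 (mf m52 (cT [10]) C) (cT [i])))) (by decide +kernel) hh
  obtain ⟨i, -, h4⟩ := anyLt_iff.1 ((bor_eq_true.1 h3).resolve_left fun e => h1 (ET.eq h2 ET.one e))
  exact isConj_iff.2 ⟨_, mul_inv_eq_of_eq_mul
    (ET.eq (ET.mf (RWT _) h2) (ET.mf (ET.mf (RWT _) h2) (RWT _)) h4)⟩

theorem comm_z (i : ℕ) (h : i < 13) (h' : i ≠ 11) : WT [i] ∈ centralizer {WT [10]} :=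
  mem_centralizer_singleton_iff.2 (ET.eq (ET.mf (RWT _) (RWT _)) (ET.mf (RWT _) (RWT _))
    (by revert i; decide +kernel))

/-- conjugation by an element of order five -/
noncomputable def cf (C : ℕ) : ℕ := mf m52 (mf m52 (cT [5, 12]) C) (cT [12, 5])

theorem RT_cf {g : TT} {C : ℕ} (h : RT g C) : RT (WT [5, 12] * g * (WT [5, 12])⁻¹) (cf C) :=
  ET.mf (ET.mf (RWT _) h) (ET.inv (RWT _) (RWT _) (by decide +kernel))

theorem irr_AT (K : Subgroup TT) (hz : WT [10] ∈ K) (hf : WT [5, 12] ∈ K) (y : TT) (hy : y ∈ AT)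
    (h : y ∈ K) (h1 : y ≠ 1) (h2 : y ≠ WT [10]) : AT ≤ K := by
  have key : ∀ {y C}, y ∈ K → RT y C →
      ∃ l, RL RT l [C, cf C, cf (cf C), cf (cf (cf C)), cT [10]] ∧ cl l ≤ K := fun h h' => by
    have k := fun y (h : y ∈ K) => mul_mem (mul_mem hf h) (inv_mem hf)
    exact ⟨_, .cons h' (.cons (RT_cf h') (.cons (RT_cf (RT_cf h')) (.cons (RT_cf (RT_cf (RT_cf h')))
      (.cons (RWT _) .nil)))), cl_le.2 (by simp only [List.forall_mem_cons]; simp [h, k, hz])⟩
  obtain ⟨C, h3, h4⟩ := ET.allSp' (ET.wrds rl_tl [[10], [6], [7], [8], [9]]) pcA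
    (p := fun C => bor (Nat.beq C o52) (bor (Nat.beq C (cT [10]))
      (forceL [C, cf C, cf (cf C), cf (cf (cf C)), cT [10]] fun L => forceB (cT [6]) fun D =>
        anyLt 32 fun e => Nat.beq D (sub m52 o52 L e)))) (by decide +kernel) hy
  obtain ⟨l, h5, h6⟩ := key h h3
  rw [bor_eq_true, bor_eq_true, forceL_eq, forceB_eq, anyLt_iff] at h4
  obtain ⟨e, -, h7⟩ := (h4.resolve_left fun e => h1 (ET.eq h3 ET.one e)).resolve_left
    fun e => h2 (ET.eq h3 (RWT _) e)
  obtain ⟨l', h8, h9⟩ := key (h6 (ET.mem_sub h5 (RWT _) h7)) (RWT _)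
  exact (ET.inOK h8 (ET.wrds rl_tl _) (e := 0x0016001c000f00010010) (by decide +kernel)).trans h9

theorem no_two_trans {Ω : Type*} [Finite Ω] [MulAction TT Ω] [FaithfulSMul TT Ω] :
    ¬ IsMultiplyPretransitive TT Ω 2 := fun h => by
  have h1 := dvd_sub_fix (Ω := Ω) (H := HT) (A := AT) (cl_le_cons _ _) (mem_cl (by simp))
    indA.2 (fun _ => pcA.mem_cons) fun _ => conj_HT
  have hz : fixedBy Ω (WT [10]) ≠ Set.univ := fun e =>
    indA.2 (fixedBy_eq_univ_iff_eq_one.1 e ▸ one_mem _)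
  have h2 : Nat.card (fixedBy Ω (WT [10])) < Nat.card Ω :=
    Set.ncard_univ Ω ▸ Set.ncard_lt_ncard (Set.ssubset_univ_iff.2 hz)
  rw [card_AT] at h1
  obtain ⟨s, hs⟩ := Perm.exists_finset_card (α := Ω) (k := 2) (by omega)
  have h3 := (fixingSubgroup TT (s : Set Ω)).index_dvd_card
  rw [IsMultiplyPretransitive.index_of_fixingSubgroup_eq _ (by simpa [hs]), card_TT,
    Set.ncard_coe_finset, hs, mul_comm, ← Nat.descFactorial_eq_factorial_mul_choose, Nat.descFactorial_succ,
    Nat.descFactorial_one] at h3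
  have h4 : Nat.card Ω = 40 ∨ Nat.card Ω = 65 := by
    have h5 : Nat.card Ω < 4241 := by
      have := Nat.le_of_dvd (by norm_num) h3
      by_contra h
      have : 4240 * 4241 ≤ (Nat.card Ω - 1) * Nat.card Ω := Nat.mul_le_mul (by omega) (by omega)
      omega
    have := allBig_iff.1 (show allBig 4241 (fun n => bor (blt n 32) (bor (bne (17971200 % ((n - 1) * n)) 0)
      (bor (Nat.beq n 40) (Nat.beq n 65)))) = true by decide +kernel) _ h5
    simp only [bor_eq_true, blt_iff, bne_iff, beq_iff, Nat.mod_eq_zero_of_dvd h3] at this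
    omega
  have ht := is_one_pretransitive_iff.1 (isMultiplyPretransitive_of_le (G := TT) (α := Ω)
    one_le_two (by omega))
  obtain ⟨x⟩ : Nonempty Ω := (Nat.card_pos_iff.1 (by omega)).1
  rcases h4 with h4 | h4
  · have h5 : (fixedBy Ω (WT [10])).ncard = 8 := by rw [← Nat.card_coe_set_eq]; omega
    have h6 := fix_of_small (IsPGroup.of_card (n := 5) card_AT) (f := WT [5, 12]) (by
        simpa [pow_succ, ev, mul_assoc] using ET.eq (RWT [5, 12, 5, 12, 5, 12, 5, 12, 5, 12]) ET.one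
          (by decide +kernel)) (mem_cl (by simp))
      (cl_le.2 (by simp only [List.map, List.forall_mem_cons]; simp [comm_z]))
      (by simpa [ev] using mul_mem (comm_z 5 (by simp) (by simp)) (comm_z 12 (by simp) (by simp)))
      (by
        rw [← inv_mem_iff]
        exact Core.mem_normalizer_of_map_conj_le (map_le_iff_le_comap.2 (cl_le.2 fun v hv => by
          rw [mem_comap, MulEquiv.coe_toMonoidHom, MulAut.conj_apply, inv_inv]
          exact ET.cjOK (RWT [5, 12]) (ET.wrds rl_tl _) (ET.wrds rl_tl [[10], [6], [7], [8], [9]])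
            (e := 0xc0010001700040001) (by decide +kernel) v hv)))
      card_AT irr_AT h5 (a := WT [6]) (mem_cl (by simp))
    have h7 : WT [11] • fixedBy Ω (WT [10]) = fixedBy Ω (WT [6]) := by
      rw [smul_fixedBy, mul_inv_eq_of_eq_mul
        (ET.eq (ET.mf (RWT [11]) (RWT [10])) (ET.mf (RWT [6]) (RWT [11])) (by decide +kernel))]
    have h8 : cl tl ≤ stabilizer TT (fixedBy Ω (WT [10])) := cl_le.2 fun g hg => by
      obtain ⟨i, hi, rfl⟩ := List.getElem_of_mem hg
      rw [show tl[i] = WT [i] by simp [ev, List.getD_eq_getElem?_getD, hi], mem_stabilizer_iff]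
      by_cases h : i = 11
      · rw [h, h7]
        exact (Set.eq_of_subset_of_ncard_le h6 (by rw [← h7, Set.ncard_smul_set])).symm
      · rw [smul_fixedBy, mul_inv_eq_of_eq_mul (mem_centralizer_singleton_iff.1
          (comm_z i (by simpa [tl, U0w, A5w] using hi) h))]
    obtain ⟨y, hy⟩ := Set.nonempty_of_ncard_ne_zero (s := fixedBy Ω (WT [10])) (by omega)
    refine hz (Set.eq_univ_of_forall fun w => ?_)
    obtain ⟨g, rfl⟩ := exists_smul_eq TT y w
    exact h8 (cl_tl ▸ mem_top g) ▸ Set.smul_mem_smul_set hy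
  · have h5 := Perm.card_eq_card_mul_stabilizer (G := TT) x
    have h6 := index_stabilizer_of_transitive TT x
    rw [card_TT, h4] at h5
    rcases card_dvd_of_odd (M := stabilizer TT x) (by omega) with h7 | h7 | h7
    · simp [h7, h4] at h6
    all_goals rw [show Nat.card (stabilizer TT x) = 276480 by omega] at h7; omega

end Cfsg.Lib.Tits
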